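/-
Coprime action with all invariant proper subgroups nilpotent, given the odd order theorem.
-/
import Cfsg.Agent.Lib.NormalPComplement.Thompson
import Cfsg.Agent.Lib.CoprimeAction.Sylow
import Cfsg.Agent.Lib.CoprimeAction.Aut
import Cfsg.Agent.Lib.SolvableStructure.MinimalNonNilpotent
import Cfsg.Agent.Lib.FixedPointFree.Splitting
import Cfsg.Agent.Lib.OddOrderApps.HallExtension

set_option autoImplicit false
set_option linter.style.haveILetI false

open scoped Pointwise

namespace CfsgLib.OddOrderApps

open Cfsg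

universe u v

variable {A : Type u} [Group A] {G : Type v} [Group G]

/-- `H` is invariant under the operator group. -/
def Inv (φ : A →* MulAut G) (H : Subgroup G) : Prop := ∀ a : A, ∀ x ∈ H, φ a x ∈ H

theorem inv_iff_map_eq {φ : A →* MulAut G} {H : Subgroup G} :
    Inv φ H ↔ ∀ a : A, H.map (φ a).toMonoidHom = H := by
  constructor
  · intro h a
    refine le_antisymm (Subgroup.map_le_iff_le_comap.mpr fun x hx => h a x hx) fun x hx => ?_
    exact ⟨φ a⁻¹ x, h a⁻¹ x hx, by
      show φ a (φ a⁻¹ x) = x
      rw [map_inv]; exact (φ a).apply_symm_apply x⟩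
  · intro h a x hx
    rw [← h a]
    exact Subgroup.mem_map_of_mem _ hx

theorem inv_top (φ : A →* MulAut G) : Inv φ (⊤ : Subgroup G) := fun _ _ _ => Subgroup.mem_top _

theorem Inv.normalizer {φ : A →* MulAut G} {H : Subgroup G} (h : Inv φ H) :
    Inv φ (Subgroup.normalizer (H : Set G)) := by
  rw [inv_iff_map_eq] at h ⊢
  intro a
  have h1 := Subgroup.map_equiv_normalizer_eq H (φ a)
  rw [h a] at h1
  exact h1

theorem Inv.centralizer {φ : A →* MulAut G} {H : Subgroup G} (h : Inv φ H) :
    Inv φ (Subgroup.centralizer (H : Set G)) := by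
  intro a x hx
  rw [Subgroup.mem_centralizer_iff] at hx ⊢
  intro y hy
  have h1 := congrArg (φ a) (hx _ (h a⁻¹ y hy))
  rw [map_mul, map_mul, show φ a (φ a⁻¹ y) = y by
    rw [map_inv]; exact (φ a).apply_symm_apply y] at h1
  exact h1

theorem Inv.inf {φ : A →* MulAut G} {H K : Subgroup G} (hH : Inv φ H) (hK : Inv φ K) :
    Inv φ (H ⊓ K) := fun a x hx => ⟨hH a x hx.1, hK a x hx.2⟩

theorem Inv.sup {φ : A →* MulAut G} {H K : Subgroup G} (hH : Inv φ H) (hK : Inv φ K) :
    Inv φ (H ⊔ K) := by
  rw [inv_iff_map_eq] at hH hK ⊢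
  intro a
  rw [Subgroup.map_sup, hH a, hK a]

theorem inv_pPrimeCore [Finite G] (φ : A →* MulAut G) (p : ℕ) : Inv φ (pPrimeCore p G) := by
  intro a x hx
  haveI : (pPrimeCore p G).Normal := inferInstance
  have h1 : (pPrimeCore p G).map (φ a).toMonoidHom ≤ pPrimeCore p G :=
    le_sSup ⟨Subgroup.Normal.map inferInstance _ (φ a).surjective,
      by rw [Subgroup.card_map_of_injective (φ a).injective]
         exact Cores.card_pPrimeCore_coprime p⟩
  exact h1 (Subgroup.mem_map_of_mem _ hx)

variable [Finite A] [Finite G]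

/-- An invariant Sylow subgroup exists. -/
theorem exists_inv_sylow (φ : A →* MulAut G) (hcop : (Nat.card A).Coprime (Nat.card G))
    (hsolv : Group.IsSolvable A ∨ Group.IsSolvable G) (p : ℕ) [Fact p.Prime] :
    ∃ P : Sylow p G, Inv φ (P : Subgroup G) := by
  haveI := CoprimeAction.finite_semidirect φ
  let i : G →* G ⋊[φ] A := SemidirectProduct.inl
  let j : A →* G ⋊[φ] A := SemidirectProduct.inr
  have hi : Function.Injective i := SemidirectProduct.inl_injective
  let K : Subgroup (G ⋊[φ] A) := (⊤ : Subgroup G).map i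
  have hcj : Nat.card j.range = Nat.card A :=
    (Nat.card_congr (MonoidHom.ofInjective (f := j) SemidirectProduct.inr_injective).toEquiv).symm
  have hcK : Nat.card K = Nat.card G := by
    rw [Subgroup.card_map_of_injective hi, Subgroup.card_top]
  obtain ⟨P, hP⟩ := CoprimeAction.exists_invariant_sylow (A := j.range) (K := K)
    (CoprimeAction.inr_le_normalizer_map_inl fun _ _ _ => Subgroup.mem_top _)
    (by rw [hcj, hcK]; exact hcop)
    (hsolv.imp (fun (h : Group.IsSolvable A) => haveI := h
        Group.isSolvable_of_surjective j.rangeRestrict_surjective)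
      (fun (h : Group.IsSolvable G) => haveI := h
        Group.isSolvable_of_surjective
          (f := i.codRestrict K fun x => Subgroup.mem_map_of_mem i (Subgroup.mem_top x))
          (fun ⟨y, x, _, hx⟩ => ⟨x, Subtype.ext hx⟩))) p
  set P' : Subgroup (G ⋊[φ] A) := (P : Subgroup K).map K.subtype
  have hle : P' ≤ i.range := by
    rw [MonoidHom.range_eq_map]
    exact Subgroup.map_subtype_le _
  have hcard : Nat.card (P'.comap i) = p ^ (Nat.card G).factorization p := by
    rw [← Subgroup.card_map_of_injective hi, Subgroup.map_comap_eq_self hle,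
      Subgroup.card_map_of_injective K.subtype_injective, P.card_eq_multiplicity, hcK]
  refine ⟨Sylow.ofCard (P'.comap i) hcard, fun a x hx => ?_⟩
  have hx' : i x ∈ P' := hx
  show i (φ a x) ∈ P'
  have h1 := (Subgroup.mem_normalizer_iff.mp (hP ⟨a, rfl⟩) (i x)).mp hx'
  rw [show i (φ a x) = j a * i x * (j a)⁻¹ by
    rw [SemidirectProduct.inl_aut, map_inv]]
  exact h1

/-- All invariant proper subgroups nilpotent implies solvable. -/
theorem isSolvable_of_forall_inv_isNilpotent (hFT : OddOrder.{u}) (hFT' : OddOrder.{v})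
    (φ : A →* MulAut G) (hcop : (Nat.card A).Coprime (Nat.card G))
    (hnil : ∀ H : Subgroup G, H ≠ ⊤ → Inv φ H → Group.IsNilpotent H) : Group.IsSolvable G := by
  suffices ∀ (n : ℕ) (G : Type v) [Group G] [Finite G] (φ : A →* MulAut G), Nat.card G = n →
      (Nat.card A).Coprime (Nat.card G) →
      (∀ H : Subgroup G, H ≠ ⊤ → Inv φ H → Group.IsNilpotent H) → Group.IsSolvable G from
    this _ G φ rfl hcop hnil
  intro n
  induction n using Nat.strong_induction_on with
  | _ n ih =>
    intro G _ _ φ hn hcop hnil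
    rcases Nat.even_or_odd (Nat.card G) with heven | hodd
    swap
    · exact hFT' G hodd
    have hsA : Group.IsSolvable A := by
      refine hFT A (Nat.not_even_iff_odd.mp fun he => ?_)
      have h2 := Nat.dvd_gcd he.two_dvd heven.two_dvd
      rw [Nat.coprime_iff_gcd_eq_one.mp hcop] at h2
      norm_num at h2
    by_cases hN : ∃ N : Subgroup G, N.Normal ∧ Inv φ N ∧ N ≠ ⊥ ∧ Group.IsSolvable N
    · obtain ⟨N, hNn, hNi, hNb, hNs⟩ := hN
      haveI := hNn
      haveI := hNs
      let ψ : A →* MulAut (G ⧸ N) :=
        MonoidHom.mk' (fun a => QuotientGroup.congr N N (φ a) (inv_iff_map_eq.mp hNi a))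
          fun a b => by
            ext x
            induction x using QuotientGroup.induction_on with
            | _ x =>
              simp only [map_mul]
              rfl
      have hlt : Nat.card (G ⧸ N) < n := by
        rw [← hn, ← Subgroup.index_eq_card]
        refine lt_of_le_of_ne (Nat.le_of_dvd Nat.card_pos (Hall.index_dvd_card N)) fun h => hNb ?_
        have h1 := N.card_mul_index
        rw [h] at h1
        exact Subgroup.card_eq_one.mp (Nat.eq_of_mul_eq_mul_right Nat.card_pos
          (h1.trans (one_mul _).symm))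
      haveI : Group.IsSolvable (G ⧸ N) := ih _ hlt (G ⧸ N) ψ rfl
        (hcop.coprime_dvd_right (Subgroup.card_quotient_dvd_card N)) fun H hH hHi => by
          have h1 : H.comap (QuotientGroup.mk' N) ≠ ⊤ := fun h => hH (by
            rw [← Subgroup.map_comap_eq_self_of_surjective (QuotientGroup.mk'_surjective N) H, h,
              Subgroup.map_top_of_surjective _ (QuotientGroup.mk'_surjective N)])
          haveI := hnil _ h1 fun a x hx => by
            show QuotientGroup.mk' N (φ a x) ∈ H
            have := hHi a _ hx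
            exact this
          exact Group.nilpotent_of_surjective ((QuotientGroup.mk' N).subgroupComap H)
            ((QuotientGroup.mk' N).subgroupComap_surjective_of_surjective H
              (QuotientGroup.mk'_surjective N))
      exact Group.isSolvable_of_ker_le_range N.subtype (QuotientGroup.mk' N)
        (by rw [QuotientGroup.ker_mk', Subgroup.range_subtype])
    push Not at hN
    by_contra hns
    -- an odd prime divisor
    obtain ⟨p, hp, hpd, hp2⟩ : ∃ p : ℕ, p.Prime ∧ p ∣ Nat.card G ∧ p ≠ 2 := by
      by_contra hcon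
      push Not at hcon
      obtain ⟨k, hk⟩ : ∃ k, Nat.card G = 2 ^ k := ⟨_, Nat.eq_prime_pow_of_unique_prime_dvd
        Nat.card_pos.ne' fun {d} hd hdd => hcon d hd hdd⟩
      haveI := Fact.mk Nat.prime_two
      haveI := (IsPGroup.of_card hk).isNilpotent
      exact hns inferInstance
    haveI := Fact.mk hp
    obtain ⟨P, hP⟩ := exists_inv_sylow φ hcop (Or.inl hsA) p
    have hPne : (P : Subgroup G) ≠ ⊥ := P.ne_bot_of_dvd_card hpd
    have solv_of_proper : ∀ H : Subgroup G, H ≠ ⊤ → Inv φ H → Group.IsSolvable H :=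
      fun H h1 h2 => haveI := hnil H h1 h2; inferInstance
    have hcompl : ∀ H : Subgroup G, H ≠ ⊤ → Inv φ H → HasNormalPComplement p H := by
      intro H h1 h2
      exact FixedPointFree.hasNormalPComplement_of_isNilpotent p (hnil H h1 h2)
    have hJi : Inv φ (thompsonSubgroupOf p (P : Subgroup G)) := by
      rw [inv_iff_map_eq] at hP ⊢
      intro a
      rw [ThompsonJ.map_thompsonSubgroupOf (φ a).injective, hP a]
    have hZi : Inv φ ((P : Subgroup G) ⊓ Subgroup.centralizer ((P : Subgroup G) : Set G)) :=
      hP.inf hP.centralizer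
    have hPtop : (P : Subgroup G) ≠ ⊤ := fun h => hns (by
      haveI : Group.IsNilpotent G :=
        (P.isPGroup'.of_equiv ((MulEquiv.subgroupCongr h).trans Subgroup.topEquiv)).isNilpotent
      infer_instance)
    have hJ : Subgroup.normalizer (thompsonSubgroupOf p (P : Subgroup G) : Set G) ≠ ⊤ := by
      intro h
      haveI : (thompsonSubgroupOf p (P : Subgroup G)).Normal := Subgroup.normalizer_eq_top_iff.mp h
      refine hN _ inferInstance hJi (ThompsonJ.thompsonSubgroupOf_ne_bot
        (P.dvd_card_of_dvd_card hpd)) ?_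
      exact solv_of_proper _ (fun h' => hPtop (top_le_iff.mp
        (h'.ge.trans (ThompsonJ.thompsonSubgroupOf_le p _)))) hJi
    have hZ : Subgroup.centralizer
        (((P : Subgroup G) ⊓ Subgroup.centralizer ((P : Subgroup G) : Set G) : Subgroup G) :
          Set G) ≠ ⊤ := by
      intro h
      set Z : Subgroup G := (P : Subgroup G) ⊓ Subgroup.centralizer ((P : Subgroup G) : Set G)
      haveI : Z.Normal := ⟨fun z hz g => by
        have := Subgroup.mem_centralizer_iff.mp (h ▸ Subgroup.mem_top g) z hz
        rwa [← this, mul_inv_cancel_right]⟩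
      refine hN Z inferInstance hZi
        (NormalPComplement.inf_centralizer_ne_bot P.isPGroup' hPne) ?_
      exact solv_of_proper _ (fun h' => hPtop (top_le_iff.mp (h'.ge.trans inf_le_left))) hZi
    have hpn : HasNormalPComplement p G := NormalPComplement.hasNormalPComplement_of_thompson hp2 P
      (hcompl _ hJ hJi.normalizer) (hcompl _ hZ hZi.centralizer)
    have hc := NormalPComplement.isComplement'_pPrimeCore hpn P
    by_cases hb : pPrimeCore p G = ⊥
    · refine hPtop ?_
      rw [hb] at hc
      exact (Subgroup.isComplement'_bot_left.mp hc)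
    refine hN _ inferInstance (inv_pPrimeCore φ p) hb (solv_of_proper _ (fun h => ?_)
      (inv_pPrimeCore φ p))
    rw [h] at hc
    exact hPne (Subgroup.isComplement'_top_left.mp hc)

/-- The structure of a non-nilpotent group whose invariant proper subgroups are nilpotent. -/
theorem structure_of_forall_inv_isNilpotent (hFT : OddOrder.{u}) (hFT' : OddOrder.{v})
    (φ : A →* MulAut G) (hcop : (Nat.card A).Coprime (Nat.card G))
    (hnil : ∀ H : Subgroup G, H ≠ ⊤ → Inv φ H → Group.IsNilpotent H)
    (hG : ¬ Group.IsNilpotent G) :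
    Group.IsSolvable G ∧
      (∃ p q a b : ℕ, p.Prime ∧ q.Prime ∧ p ≠ q ∧ Nat.card G = p ^ a * q ^ b) ∧
      ∃ (p : ℕ) (P : Sylow p G), p.Prime ∧ p ∣ Nat.card G ∧ (P : Subgroup G).Normal ∧
        Inv φ (P : Subgroup G) := by
  haveI hs := isSolvable_of_forall_inv_isNilpotent hFT hFT' φ hcop hnil
  refine ⟨hs, ?_⟩
  haveI : Nontrivial G := by
    by_contra h
    rw [not_nontrivial_iff_subsingleton] at h
    exact hG inferInstance
  have hDne : commutator G ≠ ⊤ := (Group.IsSolvable.commutator_lt_top_of_nontrivial G).ne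
  obtain ⟨p, hp, hpd⟩ := Nat.exists_prime_and_dvd
    (fun h : (commutator G).index = 1 => hDne (Subgroup.index_eq_one.mp h))
  haveI := Fact.mk hp
  set m : ℕ := ordCompl[p] (commutator G).index with hm
  -- the preimage of the `p'`-part of the commutator quotient
  let K : Subgroup G :=
    ((powMonoidHom m).comp (Abelianization.of : G →* Abelianization G)).ker
  have hK : ∀ x : G, x ∈ K ↔ x ^ m ∈ commutator G := by
    intro x
    show (Abelianization.of x) ^ m = 1 ↔ _
    rw [← map_pow, ← MonoidHom.mem_ker, Abelianization.ker_of]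
  have hKi : Inv φ K := by
    intro a x hx
    rw [hK] at hx ⊢
    rw [← map_pow]
    have h1 : (commutator G).map (φ a).toMonoidHom = commutator G :=
      Subgroup.characteristic_iff_map_eq.mp inferInstance (φ a)
    rw [← h1]
    exact Subgroup.mem_map_of_mem _ hx
  have hKne : K ≠ ⊤ := by
    intro h
    obtain ⟨y, hy⟩ := exists_prime_orderOf_dvd_card' (G := G ⧸ commutator G) p
      (by rw [← Subgroup.index_eq_card]; exact hpd)
    obtain ⟨x, rfl⟩ := QuotientGroup.mk_surjective y
    have hx : x ∈ K := h ▸ Subgroup.mem_top x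
    rw [hK, ← QuotientGroup.eq_one_iff, QuotientGroup.mk_pow, ← orderOf_dvd_iff_pow_eq_one, hy,
      hm] at hx
    exact Nat.not_dvd_ordCompl hp (Subgroup.index_ne_zero_of_finite) hx
  haveI hKnil := hnil K hKne hKi
  haveI : K.Normal := inferInstanceAs
    ((powMonoidHom m).comp (Abelianization.of : G →* Abelianization G)).ker.Normal
  have hnormal : ∀ (q : ℕ) [Fact q.Prime], q ≠ p → ∀ Q : Sylow q G, (Q : Subgroup G).Normal := by
    intro q _ hqp Q
    have hQK : (Q : Subgroup G) ≤ K := by
      intro x hx
      rw [hK, ← QuotientGroup.eq_one_iff, QuotientGroup.mk_pow, ← orderOf_dvd_iff_pow_eq_one, hm]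
      obtain ⟨k, hk⟩ := Q.isPGroup' ⟨x, hx⟩
      have hx' : x ^ q ^ k = 1 := congrArg Subtype.val hk
      have hdvd : orderOf ((x : G) : G ⧸ commutator G) ∣ q ^ k :=
        orderOf_dvd_of_pow_eq_one (by rw [← QuotientGroup.mk_pow, hx', QuotientGroup.mk_one])
      have hdvd' : orderOf ((x : G) : G ⧸ commutator G) ∣ (commutator G).index := by
        rw [Subgroup.index_eq_card]; exact orderOf_dvd_natCard _
      refine (Nat.Coprime.dvd_of_dvd_mul_left ?_
        ((Nat.ordProj_mul_ordCompl_eq_self (commutator G).index p).symm ▸ hdvd'))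
      exact (Nat.Coprime.coprime_dvd_left hdvd
        ((Nat.coprime_primes (Fact.out : q.Prime) hp).mpr hqp |>.pow k _))
    haveI hn : ((Q.subtype hQK : Sylow q K) : Subgroup K).Normal :=
      SolvableStructure.sylow_normal_of_isNilpotent hKnil q _
    haveI := (Q.subtype hQK).characteristic_of_normal hn
    have h1 := Cores.normal_map_subtype K ((Q.subtype hQK : Sylow q K) : Subgroup K)
    rwa [Sylow.coe_subtype, Subgroup.map_subgroupOf_eq_of_le hQK] at h1
  obtain ⟨P, hP⟩ := exists_inv_sylow φ hcop (Or.inr hs) p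
  have hinv : ∀ (q : ℕ) [Fact q.Prime] (Q : Sylow q G), (Q : Subgroup G).Normal →
      Inv φ (Q : Subgroup G) := by
    intro q _ Q hQn
    rw [inv_iff_map_eq]
    intro a
    haveI : ((Q : Subgroup G)).Characteristic := Q.characteristic_of_normal hQn
    exact Subgroup.characteristic_iff_map_eq.mp inferInstance (φ a)
  by_cases hex : ∃ (q : ℕ) (_ : Fact q.Prime) (Q : Sylow q G), q ≠ p ∧ q ∣ Nat.card G ∧
      (P : Subgroup G) ⊔ (Q : Subgroup G) = ⊤
  · obtain ⟨q, hq, Q, hqp, hqd, htop⟩ := hex
    haveI hQn := hnormal q hqp Q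
    refine ⟨⟨p, q, (Nat.card G).factorization p, (Nat.card G).factorization q, hp, hq.out,
      hqp.symm, ?_⟩, q, Q, hq.out, hqd, hQn, hinv q Q hQn⟩
    have hc : Subgroup.IsComplement' (P : Subgroup G) (Q : Subgroup G) :=
      Subgroup.isComplement'_of_disjoint_and_mul_eq_univ
        (IsPGroup.disjoint_of_ne p q hqp.symm _ _ P.isPGroup' Q.isPGroup')
        (by rw [← Subgroup.mul_normal, htop, Subgroup.coe_top])
    conv_lhs => rw [← hc.card_mul, P.card_eq_multiplicity, Q.card_eq_multiplicity]
  exfalso
  push Not at hex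
  have hPn : (P : Subgroup G).Normal := by
    rw [← Subgroup.normalizer_eq_top_iff]
    refine Subgroup.eq_top_of_card_eq _ (Nat.dvd_antisymm (Subgroup.card_subgroup_dvd_card _)
      ((Nat.factorization_le_iff_dvd Nat.card_pos.ne' Nat.card_pos.ne').mp ?_))
    intro q
    by_cases hq : q.Prime
    swap
    · rw [Nat.factorization_eq_zero_of_not_prime _ hq]; exact Nat.zero_le _
    haveI := Fact.mk hq
    by_cases hqd : q ∣ Nat.card G
    swap
    · rw [Nat.factorization_eq_zero_of_not_dvd hqd]; exact Nat.zero_le _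
    rw [← hq.pow_dvd_iff_le_factorization Nat.card_pos.ne']
    by_cases hqp : q = p
    · subst hqp
      rw [← P.card_eq_multiplicity]
      exact Subgroup.card_dvd_of_le Subgroup.le_normalizer
    obtain ⟨Q⟩ := (inferInstance : Nonempty (Sylow q G))
    rw [← Q.card_eq_multiplicity]
    refine Subgroup.card_dvd_of_le fun x hx => ?_
    set L : Subgroup G := (P : Subgroup G) ⊔ (Q : Subgroup G)
    have hLnil := hnil L (hex q ⟨hq⟩ Q hqp hqd) (hP.sup (hinv q Q (hnormal q hqp Q)))
    have hn : (((P.subtype (le_sup_left : _ ≤ L)) : Sylow p L) : Subgroup L).Normal :=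
      SolvableStructure.sylow_normal_of_isNilpotent hLnil p _
    rw [Sylow.coe_subtype] at hn
    exact (Subgroup.normal_subgroupOf_iff_le_normalizer le_sup_left).mp hn
      (Subgroup.mem_sup_right hx)
  refine hG ((Group.isNilpotent_of_finite_tfae (G := G)).out 0 3 |>.mpr ?_)
  intro q hq Q
  by_cases hqp : q = p
  · subst hqp
    haveI := hPn
    haveI : Subsingleton (Sylow q G) := Sylow.unique_of_normal P hPn |>.instSubsingleton
    rwa [Subsingleton.elim Q P]
  · exact hnormal q hqp Q

end CfsgLib.OddOrderApps
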