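import Cfsg.Agent.Lib.OddOrderApps.HallExtension
import Cfsg.Agent.Lib.Involutions.BrauerSuzuki

/-!
A nonabelian finite simple group contains a Klein four-group, given the odd order theorem.
-/

set_option autoImplicit false
set_option linter.style.haveILetI false

namespace CfsgLib.OddOrderApps

open Cfsg

universe u

variable {G : Type u} [Group G] [Finite G]

theorem exists_isKleinFour (hFT : OddOrder.{u}) [IsSimpleGroup G] (hG : ¬ IsCyclic G) :
    ∃ E : Subgroup G, IsKleinFour E := by
  by_contra hno
  push Not at hno
  apply hG
  have hcomm : Group.IsSolvable G → IsCyclic G := fun hs => by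
    letI : CommGroup G :=
      { (inferInstance : Group G) with mul_comm := IsSimpleGroup.comm_iff_isSolvable.mpr hs }
    infer_instance
  rcases Nat.even_or_odd (Nat.card G) with he | ho
  swap
  · exact hcomm (hFT G ho)
  haveI : Fact (Nat.Prime 2) := ⟨Nat.prime_two⟩
  obtain ⟨P⟩ := (inferInstance : Nonempty (Sylow 2 G))
  obtain ⟨z, hzP, hz⟩ := CfsgLib.Involutions.exists_involution_mem_sylow P he
  have hO : oddCore G = ⊥ := by
    rcases (inferInstance : (oddCore G).Normal).eq_bot_or_eq_top with h | h
    · exact h
    · exfalso
      have h1 := CfsgLib.Cores.card_pPrimeCore_coprime (G := G) 2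
      rw [show pPrimeCore 2 G = ⊤ from h, Subgroup.card_top, Nat.coprime_two_right] at h1
      exact Nat.not_even_iff_odd.2 h1 he
  have hzc : z ∈ Subgroup.center G := CfsgLib.Involutions.mem_center_of_isolated P hz
    (fun g hg => CfsgLib.Involutions.unique_involution_of_no_klein P hno hg hzP
      ((CfsgLib.Involutions.orderOf_conj g z).trans hz) hz) hO
  rcases (inferInstance : (Subgroup.center G).Normal).eq_bot_or_eq_top with h | h
  · exfalso
    rw [h, Subgroup.mem_bot] at hzc
    exact CfsgLib.Involutions.ne_one hz hzc
  · refine hcomm (Group.isSolvable_of_comm fun a b => ?_)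
    exact Subgroup.mem_center_iff.1 (h ▸ Subgroup.mem_top b) a

end CfsgLib.OddOrderApps
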