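import Cfsg.Agent.Lib.OddOrderApps.HallExtension

/-!
Hall's theorems for `π`-separable groups, given the odd order theorem: either the `π'`-factors or
the `π`-subgroups have odd order, hence are solvable.
-/

set_option autoImplicit false

open scoped Pointwise

namespace CfsgLib.OddOrderApps

open Cfsg CfsgLib.Hall

universe u

variable {G : Type u} [Group G] [Finite G]

theorem odd_of_isPiNum {π : Set ℕ} {n : ℕ} (h2 : 2 ∉ π) (h : IsPiNum π n) : Odd n :=
  Nat.not_even_iff_odd.mp fun he => h2 (h 2 Nat.prime_two he.two_dvd)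

/-- A `π`-separable group has a Hall `π`-subgroup containing, up to conjugacy, every
`π`-subgroup. -/
theorem exists_isPiHall_dominating_of_series (hFT : OddOrder.{u}) (π : Set ℕ) (n : ℕ)
    (H : Fin (n + 1) → Subgroup G) (h0 : H 0 = ⊥) (hlast : H (Fin.last n) = ⊤)
    (hn : ∀ i, (H i).Normal)
    (hfac : ∀ i : Fin n, IsPiNum π ((H i.castSucc).relIndex (H i.succ)) ∨
      IsPiNum πᶜ ((H i.castSucc).relIndex (H i.succ))) :
    ∃ K : Subgroup G, IsPiHall π K ∧ ∀ U : Subgroup G, IsPiSubgroup π U →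
      ∃ g : G, U ≤ MulAut.conj g • K := by
  obtain ⟨K, hK, hdom⟩ := exists_isPiHall_dominating (G := G) π (2 ∈ π) fun N _ hN => by
    obtain ⟨M, hM, hlt, h⟩ := exists_step_of_series π n H h0 hlast hn hfac N hN
    refine ⟨M, hM, hlt, h.imp_right fun h' => ⟨h', fun h2 => hFT _ ?_⟩⟩
    rw [card_map_mk' hlt.le]
    exact odd_of_isPiNum (π := πᶜ) (fun hc => hc h2) h'
  refine ⟨K, hK, fun U hU => hdom U hU ?_⟩
  by_cases h2 : 2 ∈ π
  · exact Or.inr h2
  · exact Or.inl (hFT U (odd_of_isPiNum h2 hU))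

/-- Existence, conjugacy and dominance for Hall subgroups of a `π`-separable group. -/
theorem hall_of_piSeparable (hFT : OddOrder.{u}) (π : Set ℕ)
    (hsep : ∃ (n : ℕ) (H : Fin (n + 1) → Subgroup G), H 0 = ⊥ ∧ H (Fin.last n) = ⊤ ∧ Monotone H ∧
      (∀ i, (H i).Normal) ∧
      ∀ i : Fin n, (∀ q : ℕ, q.Prime → q ∣ (H i.castSucc).relIndex (H i.succ) → q ∈ π) ∨
        (∀ q : ℕ, q.Prime → q ∣ (H i.castSucc).relIndex (H i.succ) → q ∉ π)) :
    (∃ K : Subgroup G, IsPiHall π K) ∧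
      (∀ K L : Subgroup G, IsPiHall π K → IsPiHall π L →
        ∃ g : G, L = K.map (MulAut.conj g).toMonoidHom) ∧
      ∀ U : Subgroup G, (∀ q : ℕ, q.Prime → q ∣ Nat.card U → q ∈ π) →
        ∃ K : Subgroup G, IsPiHall π K ∧ U ≤ K := by
  obtain ⟨n, H, h0, hlast, -, hn, hfac⟩ := hsep
  obtain ⟨X, hX, hdom⟩ :=
    exists_isPiHall_dominating_of_series hFT π n H h0 hlast hn hfac
  refine ⟨⟨X, hX⟩, fun K L hK hL => ?_, fun U hU => ?_⟩
  · obtain ⟨a, ha⟩ := hdom K hK.1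
    obtain ⟨b, hb⟩ := hdom L hL.1
    have ha' : K = MulAut.conj a • X := eq_of_isPiHall_le hK (isPiHall_conj hX a).1 ha
    have hb' : L = MulAut.conj b • X := eq_of_isPiHall_le hL (isPiHall_conj hX b).1 hb
    refine ⟨b * a⁻¹, ?_⟩
    rw [← CfsgLib.Hall.conj_smul_eq_map, ha', hb', ← mul_smul, ← map_mul, inv_mul_cancel_right]
  · obtain ⟨g, hg⟩ := hdom U hU
    exact ⟨_, isPiHall_conj hX g, hg⟩

end CfsgLib.OddOrderApps
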