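/-
Real class sizes with equal `2`-part and central real elements in a Sylow `2`-subgroup, given the
odd order theorem.
-/
import Cfsg.Agent.Lib.NormalPComplement.Frobenius
import Cfsg.Agent.Lib.OddOrderApps.ClassSizeFour

set_option autoImplicit false
set_option linter.style.haveILetI false

namespace CfsgLib.OddOrderApps

open Cfsg

universe u

variable {G : Type u} [Group G] [Finite G]

omit [Finite G] in
theorem isConj_inv_of_conj_eq {x g : G} (h : g * x * g⁻¹ = x⁻¹) : IsConj x x⁻¹ :=
  isConj_iff.mpr ⟨g, h⟩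

/-- A real element other than an involution has a class of even size. -/
theorem two_dvd_index_of_real {x : G} (hx : IsConj x x⁻¹) (h2 : x * x ≠ 1) :
    2 ∣ (Subgroup.centralizer ({x} : Set G)).index := by
  classical
  haveI := Fintype.ofFinite G
  set K : Finset G := Finset.univ.filter fun y => IsConj x y
  have hK : (K.card : ZMod 2) = 0 := by
    rw [Finset.card_eq_sum_ones, Nat.cast_sum, Nat.cast_one]
    refine Finset.sum_involution (fun y _ => y⁻¹) (fun _ _ => CharTwo.add_self_eq_zero _) ?_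
      (fun y hy => ?_) (fun y _ => inv_inv y)
    · intro y hy _ heq
      obtain ⟨c, rfl⟩ := isConj_iff.mp (Finset.mem_filter.mp hy).2
      apply h2
      have h3 : c * (x * x) * c⁻¹ = 1 := by
        calc c * (x * x) * c⁻¹ = c * x * c⁻¹ * (c * x * c⁻¹) := by group
          _ = c * x * c⁻¹ * (c * x * c⁻¹)⁻¹ := by rw [heq]
          _ = 1 := mul_inv_cancel _
      exact conj_eq_one_iff.mp h3
    · refine Finset.mem_filter.mpr ⟨Finset.mem_univ _, hx.trans ?_⟩
      obtain ⟨c, rfl⟩ := isConj_iff.mp (Finset.mem_filter.mp hy).2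
      exact isConj_iff.mpr ⟨c, by group⟩
  have hd : 2 ∣ K.card := (ZMod.natCast_eq_zero_iff _ _).mp hK
  have hindex : (Subgroup.centralizer ({x} : Set G)).index = K.card := by
    rw [Subgroup.centralizer_eq_comap_stabilizer]
    refine (Subgroup.index_comap_of_surjective _ (MulEquiv.surjective _)).trans ?_
    rw [MulAction.index_stabilizer, ← Set.ncard_coe_finset]
    congr 1
    ext y
    simp only [K, ConjAct.mem_orbit_conjAct, Finset.coe_filter, Finset.mem_univ, true_and,
      Set.mem_ofPred_eq]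
    exact isConj_comm
  rw [hindex]
  exact hd

/-- The Frobenius condition for the prime `2` when inverted elements of `2`-subgroups square to
one and involutions are central. -/
theorem hasNormalPComplement_two_of_inverted (hinv : ∀ x : G, x * x = 1 → x ∈ Subgroup.center G)
    (hreal : ∀ U : Subgroup G, IsPGroup 2 U → ∀ v ∈ U, ∀ x ∈ U,
      v * x * v⁻¹ = x⁻¹ → x * x = 1) : HasNormalPComplement 2 G := by
  haveI := Fact.mk Nat.prime_two
  refine NormalPComplement.hasNormalPComplement_iff_frobeniusCondition.mpr fun Q hQ g hg hodd => ?_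
  rw [Subgroup.mem_centralizer_iff]
  intro v hv
  obtain ⟨n, hn⟩ : ∃ n, v ^ 2 ^ n = 1 := by
    obtain ⟨n, hn⟩ := hQ ⟨v, hv⟩
    exact ⟨n, congrArg Subtype.val hn⟩
  induction n generalizing v with
  | zero =>
    rw [pow_zero, pow_one] at hn
    rw [hn, one_mul, mul_one]
  | succ n ih =>
    have hsq : v * v * g = g * (v * v) :=
      ih (v * v) (Q.mul_mem hv hv) (by rw [← sq, ← pow_mul, ← pow_succ']; exact hn)
    set w : G := g * v * g⁻¹ with hw
    have hwQ : w ∈ Q := (Subgroup.mem_normalizer_iff.mp hg v).mp hv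
    have hww : w * w = v * v := by
      calc w * w = g * (v * v) * g⁻¹ := by rw [hw]; group
        _ = v * v := by rw [← hsq, mul_inv_cancel_right]
    have hconj : v * (v⁻¹ * w) * v⁻¹ = (v⁻¹ * w)⁻¹ := by
      rw [mul_inv_cancel_left, mul_inv_rev, inv_inv, mul_inv_eq_iff_eq_mul, mul_assoc, ← hww,
        inv_mul_cancel_left]
    have hx2 : v⁻¹ * w * (v⁻¹ * w) = 1 :=
      hreal Q hQ v hv _ (Q.mul_mem (Q.inv_mem hv) hwQ) hconj
    set x : G := v⁻¹ * w
    have hxc : g * x = x * g := Subgroup.mem_center_iff.mp (hinv x hx2) g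
    have hstep : ∀ i : ℕ, g ^ i * v * (g ^ i)⁻¹ = v * x ^ i := by
      intro i
      induction i with
      | zero => simp
      | succ i ihi =>
        calc g ^ (i + 1) * v * (g ^ (i + 1))⁻¹
            = g * (g ^ i * v * (g ^ i)⁻¹) * g⁻¹ := by rw [pow_succ']; group
          _ = g * v * g⁻¹ * (g * x ^ i * g⁻¹) := by rw [ihi]; group
          _ = v * x * x ^ i := by
            rw [((show Commute g x from hxc).pow_right i).eq, mul_inv_cancel_right,
              show v * x = w from mul_inv_cancel_left v w]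
          _ = v * x ^ (i + 1) := by rw [pow_succ', mul_assoc]
    have h1 := hstep (orderOf g)
    rw [pow_orderOf_eq_one, one_mul, inv_one, mul_one, eq_comm, mul_eq_left] at h1
    have hx1 : x = 1 := orderOf_eq_one_iff.1 (Nat.eq_one_of_dvd_coprimes hodd
      (orderOf_dvd_of_pow_eq_one h1) (orderOf_dvd_of_pow_eq_one (by rw [sq]; exact hx2)))
    have hwv : g * v * g⁻¹ = v := (inv_mul_eq_one.mp hx1).symm
    exact (mul_inv_eq_iff_eq_mul.mp hwv).symm

/-- Equal `2`-parts of the sizes of non-central real classes and central real elements in a Sylow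
`2`-subgroup imply solvability, given the odd order theorem. -/
theorem isSolvable_of_real_two_part (hFT : OddOrder.{u}) (a : ℕ)
    (h : ∀ x : G, IsConj x x⁻¹ → x ∉ Subgroup.center G →
      ((Subgroup.centralizer ({x} : Set G)).index).factorization 2 = a)
    (S : Sylow 2 G)
    (hS : ∀ s : ↥(S : Subgroup G), IsConj s s⁻¹ → s ∈ Subgroup.center ↥(S : Subgroup G)) :
    Group.IsSolvable G ∧
      HasNormalPComplement 2 ↥(Subgroup.closure {g : G | ∃ k : ℕ, orderOf g = 2 ^ k}) := by
  haveI := Fact.mk Nat.prime_two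
  -- in a `2`-subgroup an element inverted by another squares to one
  have hreal : ∀ U : Subgroup G, IsPGroup 2 U → ∀ v ∈ U, ∀ x ∈ U,
      v * x * v⁻¹ = x⁻¹ → x * x = 1 := by
    intro U hU v hv x hx hvx
    obtain ⟨T, hT⟩ := hU.exists_le_sylow
    obtain ⟨c, hc⟩ := MulAction.exists_smul_eq G T S
    have hmem : ∀ z ∈ U, c * z * c⁻¹ ∈ (S : Subgroup G) := by
      intro z hz
      rw [← hc, Sylow.coe_subgroup_smul]
      exact ⟨z, hT hz, rfl⟩
    have h1 : IsConj (⟨_, hmem x hx⟩ : (S : Subgroup G)) (⟨_, hmem x hx⟩)⁻¹ :=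
      isConj_iff.mpr ⟨⟨_, hmem v hv⟩, Subtype.ext (by
        show c * v * c⁻¹ * (c * x * c⁻¹) * (c * v * c⁻¹)⁻¹ = (c * x * c⁻¹)⁻¹
        calc c * v * c⁻¹ * (c * x * c⁻¹) * (c * v * c⁻¹)⁻¹ = c * (v * x * v⁻¹) * c⁻¹ := by group
          _ = _ := by rw [hvx]; group)⟩
    obtain ⟨y, hy⟩ := isConj_iff.mp h1
    have h2 := Subgroup.mem_center_iff.mp (hS _ h1) y
    have h3 : (c * x * c⁻¹) = (c * x * c⁻¹)⁻¹ := congrArg Subtype.val
      (show (⟨_, hmem x hx⟩ : (S : Subgroup G)) = (⟨_, hmem x hx⟩)⁻¹ by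
        rw [← hy, h2, mul_inv_cancel_right])
    have h4 : c * (x * x) * c⁻¹ = 1 := by
      calc c * (x * x) * c⁻¹ = c * x * c⁻¹ * (c * x * c⁻¹) := by group
        _ = 1 := mul_eq_one_iff_eq_inv.mpr h3
    exact conj_eq_one_iff.mp h4
  set C : Subgroup G := Subgroup.centralizer {t : G | t * t = 1} with hC
  -- involutions in `S` are central in `S`
  have hSinv : ∀ t ∈ (S : Subgroup G), t * t = 1 → ∀ s ∈ (S : Subgroup G), s * t = t * s := by
    intro t ht htt s hs
    have h1 : IsConj (⟨t, ht⟩ : (S : Subgroup G)) (⟨t, ht⟩)⁻¹ := by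
      rw [show (⟨t, ht⟩ : (S : Subgroup G))⁻¹ = ⟨t, ht⟩ from
        Subtype.ext (inv_eq_of_mul_eq_one_left htt)]
    exact congrArg Subtype.val (Subgroup.mem_center_iff.mp (hS _ h1) ⟨s, hs⟩)
  have hconjsq : ∀ t g : G, t * t = 1 → g * t * g⁻¹ * (g * t * g⁻¹) = 1 := by
    intro t g ht
    calc g * t * g⁻¹ * (g * t * g⁻¹) = g * (t * t) * g⁻¹ := by group
      _ = 1 := by rw [ht, mul_one, mul_inv_cancel]
  have hSC : (S : Subgroup G) ≤ C := by
    by_cases hall : ∀ t : G, t * t = 1 → t ∈ Subgroup.center G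
    · intro s _
      exact Subgroup.mem_centralizer_iff.mpr fun t ht =>
        (Subgroup.mem_center_iff.mp (hall t ht) s).symm
    push Not at hall
    obtain ⟨t₀, ht₀, ht₀c⟩ := hall
    -- a non-central involution forces `a = 0`
    have ha : a = 0 := by
      obtain ⟨T, hT⟩ := (IsPGroup.of_card (p := 2) (G := Subgroup.zpowers t₀) (n := 1) (by
        rw [pow_one, Nat.card_zpowers]
        exact orderOf_eq_prime (by rw [sq]; exact ht₀)
          fun h1 => ht₀c (h1 ▸ Subgroup.one_mem _))).exists_le_sylow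
      obtain ⟨c, hc⟩ := MulAction.exists_smul_eq G T S
      set t := c * t₀ * c⁻¹
      have htS : t ∈ (S : Subgroup G) := by
        rw [← hc, Sylow.coe_subgroup_smul]
        exact ⟨t₀, hT (Subgroup.mem_zpowers t₀), rfl⟩
      have htt : t * t = 1 := hconjsq t₀ c ht₀
      have htc : t ∉ Subgroup.center G := fun hm => ht₀c (by
        have h1 := Subgroup.Normal.conj_mem inferInstance t hm c⁻¹
        rwa [show c⁻¹ * t * c⁻¹⁻¹ = t₀ by simp only [t]; group] at h1)
      rw [← h t (by rw [inv_eq_of_mul_eq_one_left htt]) htc]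
      refine Nat.factorization_eq_zero_of_not_dvd fun hd => S.not_dvd_index (hd.trans ?_)
      exact Subgroup.index_dvd_of_le fun s hs =>
        Subgroup.mem_centralizer_singleton_iff.mpr (hSinv t htS htt s hs)
    have hcomm : ∀ t u : G, t * t = 1 → u * u = 1 → t * u = u * t := by
      intro t u ht hu
      have hti : t⁻¹ = t := inv_eq_of_mul_eq_one_left ht
      have hui : u⁻¹ = u := inv_eq_of_mul_eq_one_left hu
      have hconj : t * (t * u) * t⁻¹ = (t * u)⁻¹ := by
        rw [← mul_assoc, ht, one_mul, mul_inv_rev, hui]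
      by_contra hne
      have h2 : t * u * (t * u) ≠ 1 := fun he => hne (by
        rw [eq_inv_of_mul_eq_one_left he, mul_inv_rev, hti, hui])
      have hreal' : IsConj (t * u) (t * u)⁻¹ := isConj_inv_of_conj_eq hconj
      by_cases hc : t * u ∈ Subgroup.center G
      · rw [Subgroup.mem_center_iff.mp hc t, mul_inv_cancel_right] at hconj
        exact h2 (mul_eq_one_iff_eq_inv.mpr hconj)
      · have h3 := h _ hreal' hc
        rw [ha] at h3
        exact absurd (Nat.prime_two.factorization_pos_of_dvd Subgroup.index_ne_zero_of_finite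
          (two_dvd_index_of_real hreal' h2)) (by omega)
    let V : Subgroup G :=
      { carrier := {t : G | t * t = 1}
        one_mem' := mul_one 1
        mul_mem' := fun {t u} ht hu => by
          show t * u * (t * u) = 1
          rw [← mul_assoc, mul_assoc t u t, ← hcomm t u ht hu, ← mul_assoc, ht, one_mul, hu]
        inv_mem' := fun {t} ht => by
          show t⁻¹ * t⁻¹ = 1
          rw [← mul_inv_rev, ht, inv_one] }
    haveI : V.Normal := ⟨fun t ht g => hconjsq t g ht⟩
    have hV : IsPGroup 2 V := fun t => ⟨1, Subtype.ext (by rw [pow_one, sq]; exact t.2)⟩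
    intro s hs
    exact Subgroup.mem_centralizer_iff.mpr fun t ht =>
      (hSinv t (Cores.pCore_le_sylow S (Cores.le_pCore hV ht)) ht s hs).symm
  haveI hCn : C.Normal := ⟨fun c hc g => Subgroup.mem_centralizer_iff.mpr fun t ht => by
    have h1 := Subgroup.mem_centralizer_iff.mp hc (g⁻¹ * t * g⁻¹⁻¹) (hconjsq t g⁻¹ ht)
    calc t * (g * c * g⁻¹) = g * (g⁻¹ * t * g⁻¹⁻¹ * c) * g⁻¹ := by group
      _ = g * (c * (g⁻¹ * t * g⁻¹⁻¹)) * g⁻¹ := by rw [h1]
      _ = g * c * g⁻¹ * t := by group⟩
  have hCcomp : HasNormalPComplement 2 C := by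
    refine hasNormalPComplement_two_of_inverted (fun x hx => Subgroup.mem_center_iff.mpr fun y =>
      Subtype.ext ((Subgroup.mem_centralizer_iff.mp y.2 (x : G) (congrArg Subtype.val hx)).symm))
      fun U hU v hv x hx hvx => ?_
    refine Subtype.ext (hreal (U.map C.subtype) (hU.map _) (v : G) ⟨v, hv, rfl⟩ (x : G)
      ⟨x, hx, rfl⟩ (congrArg Subtype.val hvx))
  have hsC : Group.IsSolvable C := isSolvable_of_hasNormalPComplement_two hFT hCcomp
  have hindex : ¬ 2 ∣ C.index := fun hd => S.not_dvd_index (hd.trans (Subgroup.index_dvd_of_le hSC))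
  constructor
  · haveI := hsC
    haveI : Group.IsSolvable (G ⧸ C) := hFT _ (by
      rw [← Subgroup.index_eq_card]
      exact Nat.odd_iff.mpr (Nat.two_dvd_ne_zero.mp hindex))
    exact Group.isSolvable_of_ker_le_range C.subtype (QuotientGroup.mk' C)
      (by rw [QuotientGroup.ker_mk', Subgroup.range_subtype])
  · refine NormalPComplement.hasNormalPComplement_of_le ?_ hCcomp
    rw [Subgroup.closure_le]
    rintro g ⟨k, hk⟩
    rw [SetLike.mem_coe, ← QuotientGroup.eq_one_iff (N := C), ← orderOf_eq_one_iff]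
    refine Nat.eq_one_of_dvd_coprimes (Nat.Coprime.pow_left k
      (Nat.prime_two.coprime_iff_not_dvd.mpr hindex)) ?_ ?_
    · exact hk ▸ orderOf_map_dvd (QuotientGroup.mk' C) g
    · rw [Subgroup.index_eq_card]; exact orderOf_dvd_natCard _

end CfsgLib.OddOrderApps
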